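import Cfsg.Agent.H337.HT.Cand

/-!
# S3540, quasisimple rows: characteristic of `K`, degree `1`
-/

set_option autoImplicit false

universe u w

namespace Cfsg.Agent.H337.HT

open Cfsg.Agent.H828.HT

variable {p : ℕ} [hp : Fact p.Prime] {K : Type w} [Field K] {V : Type u} [AddCommGroup V] [Module (ZMod p) V] [Finite V]
    [Module K V] {G L : Subgroup (V ≃ₗ[ZMod p] V)} {h : ℕ}

namespace QS

theorem charP (H : QS p K V G L h) : CharP K p := by
  obtain ⟨v, hv⟩ := H.exists_ne
  have h1 : (p : K) = 0 := by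
    have h2 : (p : ℕ) • v = 0 := by
      rw [← Nat.cast_smul_eq_nsmul (ZMod p), ZMod.natCast_self, zero_smul]
    rw [← Nat.cast_smul_eq_nsmul K] at h2
    exact (smul_eq_zero.1 h2).resolve_right hv
  obtain ⟨r, hr⟩ := CharP.exists K
  have h3 : r ∣ p := (CharP.cast_eq_zero_iff K r p).1 h1
  rcases (Nat.dvd_prime hp.out).1 h3 with rfl | rfl
  · exact absurd rfl (CharP.char_ne_one K 1)
  · exact hr

theorem charP_subfield (H : QS p K V G L h) (F : Subfield K) : CharP F p := by
  have := H.charP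
  exact (algebraMap F K).charP (algebraMap F K).injective p

/-- degree `1` does not occur -/
theorem finrank_ne_one (H : QS p K V G L h) : Module.finrank K V ≠ 1 := by
  intro h1
  have := H.finiteDim
  obtain ⟨a, ha, b, hb, hab⟩ := H.nonab
  obtain ⟨v, hv, hs⟩ := finrank_eq_one_iff'.1 h1
  apply hab
  obtain ⟨ca, hca⟩ := hs (a v)
  obtain ⟨cb, hcb⟩ := hs (b v)
  ext w
  obtain ⟨c, rfl⟩ := hs w
  change a (b (c • v)) = b (a (c • v))
  rw [H.lin b hb, H.lin a ha, H.lin a ha, H.lin b hb, ← hca, ← hcb, H.lin a ha, H.lin b hb, ← hca, ← hcb,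
    smul_smul, smul_smul, smul_smul, smul_smul, mul_right_comm]

end QS

end Cfsg.Agent.H337.HT
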