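import Cfsg.Agent.H333.QS6.Six
import Cfsg.Agent.H392.HT.SFacts
import Cfsg.Agent.H337.HT.Cand

/-!
# S3540, quasisimple rows: `n = 3`, `S = A₅, A₆, L₂(7)` (helper337)
-/

set_option autoImplicit false
set_option linter.unusedSectionVars false

universe u v w

namespace Cfsg.Agent.H337.HT.Three

open Module Cfsg.Agent.H952.F4 Cfsg.Agent.H337.HT Cfsg.Agent.H333.QS6.Rep Cfsg.Agent.H333.QS6.Lift
  Cfsg.Agent.H333.QS6.Kill Cfsg.Agent.H333.QS6.Six Cfsg.Agent.H333.QS6
open Cfsg.Agent.H828.HT hiding ev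

variable {p : ℕ} [Fact p.Prime] {K : Type w} [Field K] {V : Type u} [AddCommGroup V] [Module (ZMod p) V]
    [Module K V] [Finite V] {G L : Subgroup (V ≃ₗ[ZMod p] V)} {h : ℕ}

/-! ### Elements of order five -/

def z5 : Equiv.Perm (Fin 5) := c[0, 1, 2, 3, 4]
def t5 : Equiv.Perm (Fin 5) := c[1, 4] * c[2, 3]
def z6 : Equiv.Perm (Fin 6) := c[0, 1, 2, 3, 4]
def t6 : Equiv.Perm (Fin 6) := c[1, 4] * c[2, 3]

theorem z5_mem : z5 ∈ alternatingGroup (Fin 5) := by rw [Equiv.Perm.mem_alternatingGroup]; decide +kernel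
theorem t5_mem : t5 ∈ alternatingGroup (Fin 5) := by rw [Equiv.Perm.mem_alternatingGroup]; decide +kernel
theorem z6_mem : z6 ∈ alternatingGroup (Fin 6) := by rw [Equiv.Perm.mem_alternatingGroup]; decide +kernel
theorem t6_mem : t6 ∈ alternatingGroup (Fin 6) := by rw [Equiv.Perm.mem_alternatingGroup]; decide +kernel
theorem z5_ne : z5 ≠ 1 := by decide +kernel
theorem z6_ne : z6 ≠ 1 := by decide +kernel
theorem z5_pow : z5 ^ 5 = 1 := by decide +kernel
theorem z6_pow : z6 ^ 5 = 1 := by decide +kernel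
theorem t5_rel : t5 * z5 * t5⁻¹ = z5 ^ 4 := by decide +kernel
theorem t6_rel : t6 * z6 * t6⁻¹ = z6 ^ 4 := by decide +kernel

theorem a5 {S : Type v} [Group S] (e : S ≃* alternatingGroup (Fin 5)) :
    ∃ z t : S, z ≠ 1 ∧ z ^ 5 = 1 ∧ t * z * t⁻¹ = z ^ 4 := by
  refine ⟨e.symm ⟨z5, z5_mem⟩, e.symm ⟨t5, t5_mem⟩, ?_, ?_, ?_⟩
  · rw [Ne, MulEquiv.map_eq_one_iff]
    intro h
    exact z5_ne (congrArg Subtype.val h)
  · rw [← map_pow, MulEquiv.map_eq_one_iff]
    exact Subtype.ext z5_pow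
  · rw [← map_pow, ← map_inv, ← map_mul, ← map_mul]
    exact congrArg e.symm (Subtype.ext t5_rel)

theorem a6 {S : Type v} [Group S] (e : S ≃* alternatingGroup (Fin 6)) :
    ∃ z t : S, z ≠ 1 ∧ z ^ 5 = 1 ∧ t * z * t⁻¹ = z ^ 4 := by
  refine ⟨e.symm ⟨z6, z6_mem⟩, e.symm ⟨t6, t6_mem⟩, ?_, ?_, ?_⟩
  · rw [Ne, MulEquiv.map_eq_one_iff]
    intro h
    exact z6_ne (congrArg Subtype.val h)
  · rw [← map_pow, MulEquiv.map_eq_one_iff]
    exact Subtype.ext z6_pow
  · rw [← map_pow, ← map_inv, ← map_mul, ← map_mul]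
    exact congrArg e.symm (Subtype.ext t6_rel)

theorem ord_4_5 : orderOf ((4 : ℕ) : ZMod 5) = 2 := by
  rw [orderOf_eq_iff (by norm_num)]
  refine ⟨by rw [Nat.cast_ofNat]; decide, ?_⟩
  intro m hm hm0
  rw [Nat.cast_ofNat]
  interval_cases m
  decide

theorem arith1 {q N : ℕ} (hq : 2 ≤ q) (hb : q ^ 3 - 1 ≤ N * (q ^ 1 - 1)) : q ^ 2 + q + 1 ≤ N := by
  obtain ⟨a, rfl⟩ : ∃ a, q = a + 1 := ⟨q - 1, by omega⟩
  have ha0 : 0 < a := by omega
  have h1 : (a + 1) ^ 3 = a * ((a + 1) ^ 2 + (a + 1) + 1) + 1 := by ring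
  rw [h1, Nat.add_sub_cancel, pow_one, Nat.add_sub_cancel, mul_comm N a] at hb
  exact Nat.le_of_mul_le_mul_left hb ha0

/-- elements of order five, degree three -/
theorem three_five (H : QS p K V G L h) (hn : finrank K V = 3) {N : ℕ}
    (hs : ¬ 5 ^ 2 ∣ Nat.card (L ⧸ Subgroup.center L)) (hd : 5 ∣ Nat.card (L ⧸ Subgroup.center L))
    (hout : ¬ 5 ∣ Nat.card (MulAut (L ⧸ Subgroup.center L)) / Nat.card (L ⧸ Subgroup.center L))
    (hN : Nat.card {R : Subgroup (L ⧸ Subgroup.center L) // Nat.card R = 5} ≤ N)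
    (hel : ∃ z t : L ⧸ Subgroup.center L, z ≠ 1 ∧ z ^ 5 = 1 ∧ t * z * t⁻¹ = z ^ 4) :
    Nat.card K ^ 2 + Nat.card K + 1 ≤ 3 * N := by
  obtain ⟨z', t', hz1, hz2, hrel⟩ := hel
  have h5 : Fact (Nat.Prime 5) := ⟨Nat.prime_five⟩
  have hfin := finiteK H
  obtain ⟨z, hz, rfl, hzc⟩ := lift Nat.prime_five H hs hz2 hz1
  obtain ⟨t, rfl⟩ := QuotientGroup.mk_surjective t'
  have hzt := lift_rel Nat.prime_five (not_dvd_center H.perf hs) hz hrel
  obtain ⟨c, hc1, hc2⟩ := orb H Nat.prime_five hd hz hzt ord_4_5 (by norm_num)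
  rw [hn] at hc1
  have hc : c = 1 := by
    rcases Nat.lt_or_ge c 1 with h | h
    · exfalso
      have h0 : c = 0 := by omega
      rw [h0, mul_zero, add_zero] at hc1
      exact hzc ((eq_one_of_ev H (hc1.symm.trans hn.symm)) ▸ Subgroup.one_mem _)
    · omega
  subst hc
  have hev1 : ev (rep H z) 1 = 1 := by omega
  have hb := bound H Nat.prime_five hs hout hz hzc (d := 1) (k := 3) (N := N) (by
    intro μ
    by_cases hμ : μ = 1
    · rw [hμ, hev1]
    · exact hc2 μ hμ) (by rw [hev1]; norm_num) (by rw [hn]) hN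
  rw [hn] at hb
  have := arith1 H.two_le_card hb
  omega

/-- `A₅`, degree three -/
theorem kill_three_A5 (H : QS p K V G L h) (hn : finrank K V = 3)
    (e : L ⧸ Subgroup.center L ≃* alternatingGroup (Fin 5)) : False := by
  have hS := H392.HT.card_A5 e
  have hA : Nat.card (MulAut (L ⧸ Subgroup.center L)) = 120 :=
    H392.HT.card_mulAut_alt (by norm_num) (by norm_num) e
  have h5 : Fact (Nat.Prime 5) := ⟨Nat.prime_five⟩
  have hs : ¬ 5 ^ 2 ∣ Nat.card (L ⧸ Subgroup.center L) := by rw [hS]; norm_num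
  have hd : 5 ∣ Nat.card (L ⧸ Subgroup.center L) := by rw [hS]; norm_num
  have hb := three_five H hn (N := 6) hs hd (by rw [hA, hS]; norm_num) (by
    obtain ⟨h1, h2⟩ := card_order_spec hs hd
    rw [hS] at h1
    generalize Nat.card {R : Subgroup (L ⧸ Subgroup.center L) // Nat.card R = 5} = N at h1 h2 ⊢
    have h3 := Nat.le_of_dvd (by norm_num) h1
    norm_num at h1 h3
    by_contra hlt
    interval_cases N <;> omega) (a5 e)
  have hq : 7 ≤ Nat.card K := le_p H hS (by
    intro q hq hqp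
    interval_cases q <;> first | (exfalso; revert hqp; decide) | decide)
  nlinarith

theorem le_aut_A6 {S : Type u} [Group S] (e : S ≃* alternatingGroup (Fin 6)) :
    Nat.card (MulAut S) / Nat.card S ≤ 4 ∧ 0 < Nat.card (MulAut S) / Nat.card S := by
  have h1 : Nat.card (MulAut S) ∣ 1440 := by
    rw [Nat.card_congr (MulAut.congr e).toEquiv]; exact H392.HT.card_mulAut_A6_dvd
  have hfin : Finite S := Finite.of_equiv _ e.symm.toEquiv
  have hsim : IsSimpleGroup S := by
    have := alternatingGroup.isSimpleGroup (α := Fin 6) (by simp)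
    exact (MulEquiv.isSimpleGroup_congr e).2 this
  have hinj : Function.Injective (MulAut.conj : S →* MulAut S) := by
    rw [← MonoidHom.ker_eq_bot_iff]
    refine (Subgroup.Normal.eq_bot_or_eq_top inferInstance).resolve_right fun htop => ?_
    obtain ⟨z, t, hz1, hz2, hrel⟩ := a6 e
    have h2 : t ∈ (MulAut.conj : S →* MulAut S).ker := by rw [htop]; trivial
    have h3 : t * z * t⁻¹ = z := DFunLike.congr_fun (MonoidHom.mem_ker.1 h2) z
    rw [hrel] at h3
    have h4 : z ^ 3 = 1 := by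
      have : z * z ^ 3 = z * 1 := by rw [mul_one, ← pow_succ']; exact h3
      exact mul_left_cancel this
    apply hz1
    have h5 : z = (z ^ 3) ^ 2 * (z ^ 5)⁻¹ := by group
    rw [h5, h4, hz2]; group
  have h2 : Nat.card S ≤ Nat.card (MulAut S) := Nat.card_le_card_of_injective _ hinj
  have hS := H392.HT.card_A6 e
  have h3 := Nat.le_of_dvd (by norm_num) h1
  rw [hS] at h2 ⊢
  omega

/-- `A₆`, degree three -/
theorem kill_three_A6 (H : QS p K V G L h) (hn : finrank K V = 3)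
    (e : L ⧸ Subgroup.center L ≃* alternatingGroup (Fin 6)) : False := by
  have hS := H392.HT.card_A6 e
  have h5 : Fact (Nat.Prime 5) := ⟨Nat.prime_five⟩
  have hs : ¬ 5 ^ 2 ∣ Nat.card (L ⧸ Subgroup.center L) := by rw [hS]; norm_num
  have hd : 5 ∣ Nat.card (L ⧸ Subgroup.center L) := by rw [hS]; norm_num
  obtain ⟨hA1, hA2⟩ := le_aut_A6 e
  have hb := three_five H hn (N := 36) hs hd (by
      intro h1
      have := Nat.le_of_dvd hA2 h1
      omega) (by
    obtain ⟨h1, h2⟩ := card_order_spec hs hd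
    have hsim := H.simple
    have h3 := card_order_ne hs hd (by rw [hS]; norm_num)
    rw [hS] at h1 h3
    generalize Nat.card {R : Subgroup (L ⧸ Subgroup.center L) // Nat.card R = 5} = N at h1 h2 h3 ⊢
    norm_num at h1 h3
    obtain ⟨m, hm⟩ := h1
    by_contra hlt
    have hm4 : m < 2 := by nlinarith
    interval_cases m <;> omega) (a6 e)
  have hq : 7 ≤ Nat.card K := le_p H hS (by
    intro q hq hqp
    interval_cases q <;> first | (exfalso; revert hqp; decide) | decide)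
  have hq9 : Nat.card K ≤ 9 := by
    by_contra hlt
    have : 10 ≤ Nat.card K := by omega
    nlinarith
  have hco := H.coprime
  rw [hS] at hco
  have hq7 : Nat.card K = 7 := by
    have h8 : Nat.card K ≠ 8 := by intro h; rw [h] at hco; revert hco; decide
    have h9 : Nat.card K ≠ 9 := by intro h; rw [h] at hco; revert hco; decide
    omega
  have hcand := H.cand (R := 1) (one_dvd _)
  rw [hn, hq7, hS] at hcand
  obtain ⟨m, h', -, h2, h3, h4, h5', h6⟩ := hcand
  have hA : Nat.card (MulAut (L ⧸ Subgroup.center L)) ∣ 1440 := by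
    rw [Nat.card_congr (MulAut.congr e).toEquiv]; exact H392.HT.card_mulAut_A6_dvd
  have h7 : m ∣ Nat.gcd (6 * 1440) (7 ^ 3 - 1) :=
    Nat.dvd_gcd (((Dvd.intro _ rfl).trans h5').trans (Nat.mul_dvd_mul_left 6 hA)) h3
  have h8 : m ≤ 18 := Nat.le_of_dvd (by norm_num) (by simpa using h7)
  have h9 : 360 ≤ m * h' := Nat.le_of_dvd (Nat.mul_pos (Nat.pos_of_dvd_of_pos h3 (by norm_num)) (by omega)) h4
  have h10 : 20 ≤ h' := by nlinarith
  have h11 : m ^ 2 ≤ 324 := by nlinarith
  have h12 : h' * m ^ 2 ≤ h' * 324 := Nat.mul_le_mul_left _ h11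
  obtain ⟨k, rfl⟩ : ∃ k, h' = k + 1 := ⟨h' - 1, by omega⟩
  rw [Nat.add_sub_cancel] at h6
  omega

/-- `L₂(7)`, degree three -/
theorem kill_three_L27 (H : QS p K V G L h) (hn : finrank K V = 3)
    (hL : Cfsg.Agent.H912.Bd.IsL 2 7 (L ⧸ Subgroup.center L)) : False := by
  obtain ⟨hS, hA, z', x', hz1, hz2, hx2, hrel⟩ := Data.l27 hL
  have h7p : Nat.Prime 7 := by norm_num
  have h7f : Fact (Nat.Prime 7) := ⟨h7p⟩
  have h3 : Fact (Nat.Prime 3) := ⟨Nat.prime_three⟩
  have hs : ¬ 7 ^ 2 ∣ Nat.card (L ⧸ Subgroup.center L) := by rw [hS]; norm_num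
  have hd : 7 ∣ Nat.card (L ⧸ Subgroup.center L) := by rw [hS]; norm_num
  have hs3 : ¬ 3 ^ 2 ∣ Nat.card (L ⧸ Subgroup.center L) := by rw [hS]; norm_num
  have hd3 : 3 ∣ Nat.card (L ⧸ Subgroup.center L) := by rw [hS]; norm_num
  have hfin := finiteK H
  have hx1 : x' ≠ 1 := by
    rintro rfl
    rw [one_mul, inv_one, mul_one] at hrel
    have h8 : z' ^ 3 = 1 := by
      have : z' * z' ^ 3 = z' * 1 := by rw [mul_one, ← pow_succ']; exact hrel.symm
      exact mul_left_cancel this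
    have ho := orderOf_eq_prime hz2 hz1
    have := orderOf_dvd_of_pow_eq_one h8
    rw [ho] at this
    norm_num at this
  obtain ⟨z, hz, rfl, hzc⟩ := lift h7p H hs hz2 hz1
  obtain ⟨x, hx, rfl, hxc⟩ := lift Nat.prime_three H hs3 hx2 hx1
  have hzx := lift_rel h7p (not_dvd_center H.perf hs) hz hrel
  have hord := ord_4_7
  obtain ⟨c, hc1, hc2⟩ := orb H h7p hd hz hzx hord (by norm_num)
  rw [hn] at hc1
  have hsim := H.simple
  have hq : 5 ≤ Nat.card K := le_p H hS (by
    intro q hq hqp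
    interval_cases q <;> first | (exfalso; revert hqp; decide) | decide)
  have hc : c = 1 := by
    rcases Nat.lt_or_ge c 1 with h | h
    · exfalso
      have h0 : c = 0 := by omega
      rw [h0, mul_zero, add_zero] at hc1
      exact hzc ((eq_one_of_ev H (hc1.symm.trans hn.symm)) ▸ Subgroup.one_mem _)
    · omega
  subst hc
  have hev1 : ev (rep H z) 1 = 0 := by omega
  obtain ⟨hf1, hf2⟩ := fro H h7p hd hz hzx hord (by norm_num) hx hev1
  rw [hn] at hf1 hf2
  have hb := bound H Nat.prime_three hs3 (by rw [hA, hS]; norm_num) hx hxc (d := 1) (k := 3) (N := 28) (by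
    intro μ
    have := hf2 μ
    omega) (by omega) (by rw [hn]) (by
    obtain ⟨h1, h2⟩ := card_order_spec hs3 hd3
    rw [hS] at h1
    set N := Nat.card {R : Subgroup (L ⧸ Subgroup.center L) // Nat.card R = 3}
    obtain ⟨m, hm⟩ := h1
    norm_num at hm
    by_contra hlt
    have hm4 : m < 2 := by nlinarith
    interval_cases m <;> omega)
  rw [hn] at hb
  have h6 := arith1 (by omega) hb
  have hq8 : Nat.card K ≤ 8 := by
    by_contra hlt
    have : 9 ≤ Nat.card K := by omega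
    nlinarith
  have hco := H.coprime
  rw [hS] at hco
  have hq5 : Nat.card K = 5 := by
    have h8 : Nat.card K ≠ 8 := by intro h; rw [h] at hco; revert hco; decide
    have h9 : Nat.card K ≠ 6 := by intro h; rw [h] at hco; revert hco; decide
    have h10 : Nat.card K ≠ 7 := by intro h; rw [h] at hco; revert hco; decide
    omega
  have hcand := H.cand (R := 1) (one_dvd _)
  rw [hn, hq5, hS, hA] at hcand
  have h7 := hcand.gcd_le (by norm_num) (by norm_num)
  revert h7
  decide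

end Cfsg.Agent.H337.HT.Three
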